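import Cfsg.Agent.Lib.GroupB.Hall
import Cfsg.Agent.Lib.GroupB.CoprimeAbelian
import Mathlib.Algebra.Group.Subgroup.Pointwise
import Mathlib.GroupTheory.Complement

/-! Hall's theorems for solvable groups, in cardinality form. -/

set_option autoImplicit false

namespace CfsgLib.Solvable.HallBasic

open Cfsg CfsgLib.GroupB
open scoped Pointwise

universe u

variable {G : Type u} [Group G]

/-- the primes of `m` -/
def primesOf (m : ℕ) : Set ℕ := {p | p ∣ m}

theorem isPiHall_of_card [Finite G] {H : Subgroup G} {m n : ℕ} (hG : Nat.card G = m * n) (hmn : m.Coprime n)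
    (hH : Nat.card H = m) : IsPiHall (primesOf m) H := by
  refine Hall.isPiHall_iff.mpr ⟨fun p _ hd => hH ▸ hd, fun p hp hd hpm => ?_⟩
  have hi : H.index = n := by
    have := H.card_mul_index
    rw [hG, hH] at this
    exact Nat.eq_of_mul_eq_mul_left (hH ▸ Nat.card_pos) this
  exact hp.ne_one (Nat.eq_one_of_dvd_coprimes hmn hpm (hi ▸ hd))

theorem isPiNum_of_dvd {m d : ℕ} (h : d ∣ m) : Hall.IsPiNum (primesOf m) d :=
  fun _ _ hd => hd.trans h

theorem card_of_isPiHall [Finite G] {H : Subgroup G} {m n : ℕ} (hG : Nat.card G = m * n) (hmn : m.Coprime n)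
    (hH : IsPiHall (primesOf m) H) : Nat.card H = m := by
  obtain ⟨h1, h2⟩ := Hall.isPiHall_iff.mp hH
  have hd : Nat.card H * H.index = m * n := H.card_mul_index.trans hG
  have e1 : (Nat.card H).Coprime n := Hall.coprime_of_isPiNum h1 fun p hp hdn hpm =>
    hp.ne_one (Nat.eq_one_of_dvd_coprimes hmn hpm hdn)
  have e2 : m.Coprime H.index := Hall.coprime_of_isPiNum (isPiNum_of_dvd dvd_rfl) h2
  exact Nat.dvd_antisymm (e1.dvd_of_dvd_mul_right (hd ▸ dvd_mul_right _ _))
    (e2.dvd_of_dvd_mul_right (hd.symm ▸ dvd_mul_right _ _))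

theorem exists_card [Finite G] [Group.IsSolvable G] {m n : ℕ} (hG : Nat.card G = m * n) (hmn : m.Coprime n) :
    ∃ H : Subgroup G, Nat.card H = m := by
  obtain ⟨H, hH⟩ := Hall.exists_isPiHall (Hall.piSep_of_isSolvable (G := G) (primesOf m))
  exact ⟨H, card_of_isPiHall hG hmn hH⟩

theorem smul_eq_map (g : G) (H : Subgroup G) :
    MulAut.conj g • H = H.map (MulAut.conj g).toMonoidHom := rfl

theorem exists_conj [Finite G] [Group.IsSolvable G] {m n : ℕ} (hG : Nat.card G = m * n) (hmn : m.Coprime n)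
    {H K : Subgroup G} (hH : Nat.card H = m) (hK : Nat.card K = m) :
    ∃ g : G, MulAut.conj g • H = K := by
  obtain ⟨g, hg⟩ := Hall.exists_conj_eq (Hall.piSep_of_isSolvable (G := G) (primesOf m))
    (isPiHall_of_card hG hmn hH) (isPiHall_of_card hG hmn hK)
  exact ⟨g, (smul_eq_map g H).trans hg⟩

theorem exists_card_ge [Finite G] [Group.IsSolvable G] {m n : ℕ} (hG : Nat.card G = m * n) (hmn : m.Coprime n)
    {K : Subgroup G} (hK : (Nat.card K).Coprime n) : ∃ H : Subgroup G, Nat.card H = m ∧ K ≤ H := by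
  obtain ⟨H, hH, hle⟩ := Hall.exists_isPiHall_ge (Hall.piSep_of_isSolvable (G := G) (primesOf m))
    (U := K) (isPiNum_of_dvd (hK.dvd_of_dvd_mul_right (hG ▸ Subgroup.card_subgroup_dvd_card K)))
  exact ⟨H, card_of_isPiHall hG hmn hH, hle⟩

theorem conj_complement [Finite G] (N : Subgroup G) [N.Normal] (hN : (Nat.card N).Coprime N.index)
    (hsolv : Group.IsSolvable N ∨ Group.IsSolvable (G ⧸ N)) (H K : Subgroup G)
    (hH : Subgroup.IsComplement' N H) (hK : Subgroup.IsComplement' N K) :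
    ∃ a ∈ N, MulAut.conj a • H = K := by
  have hs : Group.IsSolvable N ∨ Group.IsSolvable H := by
    refine hsolv.imp id fun h => ?_
    haveI := h
    exact Group.isSolvable_of_isSolvable_injective (f := (QuotientGroup.mk' N).comp H.subtype) (by
      intro a b hab
      have hab' : ((a : G) : G ⧸ N) = ((b : G) : G ⧸ N) := hab
      rw [QuotientGroup.eq] at hab'
      have h1 : (a⁻¹ * b : H).1 ∈ N ⊓ H := ⟨by simpa using hab', (a⁻¹ * b).2⟩
      rw [disjoint_iff.mp hH.disjoint, Subgroup.mem_bot] at h1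
      exact inv_mul_eq_one.mp (Subtype.ext h1))
  have hcH := Subgroup.IsComplement.card_mul hH
  have hcK := Subgroup.IsComplement.card_mul hK
  have hi : Nat.card H = N.index := Nat.eq_of_mul_eq_mul_left Nat.card_pos
    (hcH.trans N.card_mul_index.symm)
  obtain ⟨a, ha, e⟩ := CfsgLib.GroupB.SchurZassenhaus.exists_conj N H K (hi ▸ hN) hcH
    (Nat.eq_of_mul_eq_mul_left Nat.card_pos (hcK.trans hcH.symm)) hs
  exact ⟨a, ha, (smul_eq_map a H).trans e.symm⟩

end CfsgLib.Solvable.HallBasic
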