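import Cfsg.Agent.Lib.GroupB.CoprimeAbelian
import Cfsg.Agent.Lib.PLocal.Elementary

/-! Fixed-point-free action by conjugation. -/

set_option autoImplicit false

namespace CfsgLib.Solvable.Fpf

open Subgroup

universe u

variable {G : Type u} [Group G] [Finite G] {A K : Subgroup G}

/-- A fixed-point-free group of operators has order dividing `|K| - 1`. -/
theorem card_dvd (hAK : A ≤ normalizer (K : Set G))
    (hfpf : ∀ a ∈ A, a ≠ 1 → K ⊓ centralizer {a} = ⊥) : Nat.card A ∣ Nat.card K - 1 := by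
  classical
  let ψ : A → K → K := fun a k => ⟨(a : G) * k * (a : G)⁻¹, (CfsgLib.GroupB.Coprime.conj_mem_iff (hAK a.2)).mpr k.2⟩
  letI : MulAction A K :=
    { smul := ψ
      one_smul := fun k => Subtype.ext (by show (1 : G) * k * (1 : G)⁻¹ = k; simp)
      mul_smul := fun a b k => Subtype.ext (by
        show ((a : G) * b) * k * ((a : G) * b)⁻¹ = a * ((b : G) * k * (b : G)⁻¹) * (a : G)⁻¹
        group) }
  let S : SubMulAction A K :=
    { carrier := {k | k ≠ 1}
      smul_mem' := fun a k hk h => hk (Subtype.ext (by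
        have h' : (a : G) * k * (a : G)⁻¹ = 1 := congrArg Subtype.val h
        rw [conj_eq_one_iff] at h'
        exact h')) }
  have hfree : ∀ s : S, MulAction.stabilizer A s = ⊥ := by
    intro s
    rw [Subgroup.eq_bot_iff_forall]
    intro a ha
    by_contra ha1
    have h' : (a : G) * (s.1 : G) * (a : G)⁻¹ = s.1 := congrArg (fun t : S => ((t.1 : K) : G)) (ha : a • s = s)
    have h2 : ((s.1 : K) : G) ∈ K ⊓ centralizer {(a : G)} :=
      ⟨s.1.2, mem_centralizer_singleton_iff.mpr (mul_inv_eq_iff_eq_mul.mp h').symm⟩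
    rw [hfpf a a.2 (fun e => ha1 (Subtype.ext e)), mem_bot] at h2
    exact s.2 (Subtype.ext h2)
  have h1 := Nat.card_congr (MulAction.selfEquivSigmaOrbitsQuotientStabilizer A S)
  letI := Fintype.ofFinite (MulAction.orbitRel.Quotient A S)
  rw [Nat.card_sigma] at h1
  have h2 : ∀ ω : MulAction.orbitRel.Quotient A S, Nat.card (A ⧸ MulAction.stabilizer A ω.out) = Nat.card A :=
    fun ω => by rw [hfree]; exact Nat.card_congr QuotientGroup.quotientBot.toEquiv
  simp only [h2, Finset.sum_const, smul_eq_mul] at h1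
  have h3 : Nat.card S = Nat.card K - 1 := by
    show Nat.card ↥({k : K | k ≠ 1} : Set K) = _
    rw [Nat.card_coe_set_eq, show ({k : K | k ≠ 1} : Set K) = ({1} : Set K)ᶜ from rfl, Set.ncard_compl,
      Set.ncard_singleton]
  rw [← h3, h1]
  exact dvd_mul_left _ _

theorem coprime (hAK : A ≤ normalizer (K : Set G))
    (hfpf : ∀ a ∈ A, a ≠ 1 → K ⊓ centralizer {a} = ⊥) : (Nat.card A).Coprime (Nat.card K) := by
  refine Nat.Coprime.coprime_dvd_left (card_dvd hAK hfpf) ?_
  have hpos := Nat.card_pos (α := K)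
  obtain ⟨m, hm⟩ : ∃ m, Nat.card K = m + 1 := ⟨Nat.card K - 1, by omega⟩
  rw [hm, Nat.add_sub_cancel]
  exact Nat.coprime_self_add_right.mpr (Nat.coprime_one_right _)

/-- An abelian fixed-point-free group of operators is cyclic. -/
theorem isCyclic (hA : IsMulCommutative A) (hK : K ≠ ⊥) (hAK : A ≤ normalizer (K : Set G))
    (hfpf : ∀ a ∈ A, a ≠ 1 → K ⊓ centralizer {a} = ⊥) : IsCyclic A := by
  by_contra hcyc
  refine hK (le_bot_iff.mp ?_)
  rw [← CfsgLib.GroupB.CoprimeAbelian.iSup_centralizer_eq hA hAK (coprime hAK hfpf)]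
  refine iSup₂_le fun B hB => ?_
  obtain ⟨a, ha, ha1⟩ : ∃ a ∈ B, a ≠ 1 := by
    by_contra hall
    push Not at hall
    obtain ⟨-, a, ha, e⟩ := hB
    rw [(Subgroup.eq_bot_iff_forall B).mpr hall, bot_sup_eq] at e
    refine hcyc ⟨⟨⟨a, ha⟩, fun x => ?_⟩⟩
    obtain ⟨i, hi⟩ := (e.symm ▸ x.2 : (x : G) ∈ Subgroup.zpowers a)
    exact ⟨i, Subtype.ext (by simpa using hi)⟩
  exact le_trans (inf_le_inf_left _ (centralizer_le (Set.singleton_subset_iff.mpr ha)))
    (hfpf a (hB.1 ha) ha1).le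

end CfsgLib.Solvable.Fpf
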